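import Mathlib
import Cfsg.Agent.Lib.Ito.Family

/-!
# Ito: groups with three class sizes are solvable
-/

set_option autoImplicit false
set_option linter.style.haveILetI false
set_option linter.unusedSectionVars false
set_option linter.unusedVariables false

namespace Cfsg.Agent.Lib.Ito

open Subgroup Cfsg
open Cfsg.Agent.Lib.ClassSize.Basic (cent mem_cent_iff mem_cent_self mem_cent_comm center_le_cent
  cent_le_of_pow cent_mul_eq_inf index_cent_eq_one_iff eq_of_le_of_index_eq)

universe u

variable {G : Type u} [Group G] [Finite G]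

theorem solvable_of_center_quotient (hX : Group.IsSolvable (G ⧸ center G)) :
    Group.IsSolvable G := by
  have hZ : Group.IsSolvable (center G) := by
    apply Group.isSolvable_of_comm
    intro a b
    exact Subtype.ext ((Subgroup.mem_center_iff.1 a.2) b).symm
  exact Group.isSolvable_of_ker_le_range (center G).subtype (QuotientGroup.mk' (center G)) (by
    intro x hx
    have : x ∈ center G := by simpa using hx
    exact ⟨⟨x, this⟩, rfl⟩)

/-- Burnside reduction: if `r`-elements are central for all primes other than `p`, `q`, the group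
is solvable. -/
theorem burn {p q : ℕ} (hp : p.Prime)
    (h : ∀ r : ℕ, r.Prime → r ≠ p → r ≠ q → ∀ a : G, IsEl r a → a ∈ center G) :
    Group.IsSolvable G := by
  apply solvable_of_center_quotient
  have hprimes : ∀ d : ℕ, d.Prime → d ∣ Nat.card (G ⧸ center G) → d = p ∨ d = q := by
    intro d hd hdd
    by_contra hcon
    push Not at hcon
    haveI : Fact d.Prime := ⟨hd⟩
    obtain ⟨x, hx⟩ := exists_prime_orderOf_dvd_card' d hdd
    obtain ⟨g, rfl⟩ := piZ_surjective x
    obtain ⟨a, b, ha, hb, hab, hae, hbc⟩ := exists_parts hd g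
    have h1 : piZ a = piZ g := map_part_left piZ ha hb hab hbc (isEl_of_orderOf_eq hx)
    have h2 := h d hd hcon.1 hcon.2 a hae
    rw [piZ_eq_one.2 h2] at h1
    rw [← h1, orderOf_one] at hx
    exact hd.one_lt.ne hx
  by_cases hq : q.Prime
  · obtain ⟨a, b, hab⟩ := eq_pow_mul_pow_of_primes Nat.card_pos.ne' hp hq hprimes
    exact Cfsg.Agent.Lib.Char.Burnside2.isSolvable_of_card_eq hp hq _ _ a b rfl hab
  · obtain ⟨a, b, hab⟩ := eq_pow_mul_pow_of_primes (n := Nat.card (G ⧸ center G)) Nat.card_pos.ne' hp hp
      (by
        intro d hd hdd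
        rcases hprimes d hd hdd with h1 | h1
        · exact Or.inl h1
        · exact absurd (h1 ▸ hd) hq)
    exact Cfsg.Agent.Lib.Char.Burnside2.isSolvable_of_card_eq hp hp _ _ a b rfl hab

/-- The class size of a product of commuting elements of coprime orders. -/
theorem index_mul_of_commute {x w : G} (hw : w ∈ cent x)
    (hcop : Nat.Coprime (orderOf x) (orderOf w)) :
    (cent (x * w)).index = (cent w).relIndex (cent x) * (cent x).index := by
  have hc : Commute x w := mem_cent_iff.1 hw
  rw [cent_mul_eq_inf hc hcop, inf_comm, ← relIndex_mul_index (inf_le_right : cent w ⊓ cent x ≤ cent x),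
    inf_relIndex_right]

theorem cent_subtype (K : Subgroup G) (h : K) : cent h = (cent (h : G)).subgroupOf K := by
  ext a
  rw [mem_subgroupOf, mem_cent_iff, mem_cent_iff]
  exact ⟨fun h1 => congrArg Subtype.val h1, fun h1 => Subtype.ext h1⟩

theorem index_cent_subtype (K : Subgroup G) (h : K) :
    (cent h).index = (cent (h : G)).relIndex K := by
  rw [cent_subtype]
  rfl

theorem isEl_subtype {K : Subgroup G} {r : ℕ} {u : K} : IsEl r (u : G) ↔ IsEl r u := by
  constructor
  · rintro ⟨e, he⟩
    exact ⟨e, Subtype.ext he⟩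
  · intro h
    exact h.map K.subtype

/-- Weak centrality from class sizes `1`, `l`. -/
theorem weak_of_sizes {H : Type*} [Group H] [Finite H] {l : ℕ} {y t : H} (hyc : y ∉ center H)
    (hsy : (cent y).index = 1 ∨ (cent y).index = l)
    (hsyt : (cent (y * t)).index = 1 ∨ (cent (y * t)).index = l) (htc : t ∈ cent y)
    (hcop : Nat.Coprime (orderOf y) (orderOf t)) : ∀ a ∈ cent y, Commute t a := by
  have hcomm : Commute y t := mem_cent_iff.1 htc
  have h1 : cent (y * t) = cent y ⊓ cent t := cent_mul_eq_inf hcomm hcop
  have hne : (cent y).index ≠ 1 := fun h => hyc (index_cent_eq_one_iff.1 h)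
  have hl : (cent y).index = l := hsy.resolve_left hne
  have h2 : (cent (y * t)).index ≠ 1 := by
    intro h
    rw [Subgroup.index_eq_one] at h
    apply hne
    rw [Subgroup.index_eq_one, eq_top_iff, ← h, h1]
    exact inf_le_left
  have h3 : (cent (y * t)).index = l := hsyt.resolve_left h2
  have h4 : cent (y * t) = cent y :=
    eq_of_le_of_index_eq (by rw [h1]; exact inf_le_left) (h3.trans hl.symm)
  intro a ha
  have h5 : a ∈ cent (y * t) := h4 ▸ ha
  rw [h1] at h5
  exact mem_cent_iff.1 h5.2

section Sizes

variable {m n : ℕ} (hmn : m < n)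
  (hsz : ∀ x : G, x ∉ center G → (cent x).index = m ∨ (cent x).index = n)
include hmn hsz

/-- The relative class sizes. -/
theorem relIndex_one_or {u b : G} {l : ℕ} (huc : u ∉ center G) (hum : (cent u).index = m)
    (hn : n = l * m) (hb : b ∈ cent u) (hcop : Nat.Coprime (orderOf u) (orderOf b)) :
    (cent b).relIndex (cent u) = 1 ∨ (cent b).relIndex (cent u) = l := by
  have h1 := index_mul_of_commute hb hcop
  rw [hum] at h1
  have hm1 : m ≠ 1 := by
    intro h
    rw [h] at hum
    exact huc (index_cent_eq_one_iff.1 hum)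
  have hm0 : 0 < m := by
    rw [← hum]
    exact Nat.pos_of_ne_zero Subgroup.index_ne_zero_of_finite
  have hnc : u * b ∉ center G := by
    intro h
    have h2 := index_cent_eq_one_iff.2 h
    rw [h1] at h2
    exact hm1 (Nat.eq_one_of_mul_eq_one_left h2)
  rcases hsz _ hnc with h2 | h2
  · left
    rw [h1] at h2
    exact Nat.eq_of_mul_eq_mul_right hm0 (by rw [h2, one_mul])
  · right
    rw [h1, hn] at h2
    exact Nat.eq_of_mul_eq_mul_right hm0 h2

/-- Lemma III. -/
theorem lemmaIII {p : ℕ} (hp : p.Prime) {x w : G} (hx : IsEl p x) (hxc : x ∉ center G)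
    (hw : w ∈ cent x) (hwp : Nat.Coprime (orderOf w) p) (hwn : ∃ a ∈ cent x, ¬ Commute w a) :
    (cent x).index = m ∧ ∃ l : ℕ, n = l * m ∧ 1 < l ∧ (Group.IsSolvable G ∨ (∃ e, l = p ^ e) ∨
      ∃ (q b : ℕ), q.Prime ∧ q ≠ p ∧ l = q ^ b ∧
        ∀ f ∈ cent x, Nat.Coprime (orderOf f) q → ∀ a ∈ cent x, Commute f a) := by
  classical
  haveI : Fact p.Prime := ⟨hp⟩
  have hcopx : ∀ {b : G}, Nat.Coprime (orderOf b) p → Nat.Coprime (orderOf x) (orderOf b) := by
    intro b hb
    obtain ⟨e, he⟩ := hx.orderOf_eq hp
    rw [he]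
    exact Nat.Coprime.pow_left _ hb.symm
  set R := (cent w).relIndex (cent x) with hR
  have hR1 : R ≠ 1 := by
    intro h
    rw [hR, relIndex_eq_one] at h
    obtain ⟨a, ha, hac⟩ := hwn
    exact hac (mem_cent_iff.1 (h ha))
  have hR0 : R ≠ 0 := by
    show ((cent w).subgroupOf (cent x)).index ≠ 0
    exact Subgroup.index_ne_zero_of_finite
  have hR2 : 2 ≤ R := by omega
  have h1 := index_mul_of_commute hw (hcopx hwp)
  rw [← hR] at h1
  have hx0 : 0 < (cent x).index := Nat.pos_of_ne_zero Subgroup.index_ne_zero_of_finite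
  have hx1 : (cent x).index ≠ 1 := fun h => hxc (index_cent_eq_one_iff.1 h)
  have hxw : x * w ∉ center G := by
    intro h
    have h2 := index_cent_eq_one_iff.2 h
    rw [h1] at h2
    exact hx1 (Nat.eq_one_of_mul_eq_one_left h2)
  have hgt : (cent x).index < (cent (x * w)).index := by
    rw [h1]
    nlinarith
  have hxm : (cent x).index = m := by
    rcases hsz x hxc with h2 | h2
    · exact h2
    · exfalso
      rcases hsz _ hxw with h3 | h3 <;> omega
  have hxwn : (cent (x * w)).index = n := by
    rcases hsz _ hxw with h3 | h3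
    · omega
    · exact h3
  have hn : n = R * m := by
    rw [← hxwn, h1, hxm]
  refine ⟨hxm, R, hn, by omega, ?_⟩
  -- the group `H`
  let H : Subgroup G := cent x
  have hszH : ∀ b : H, Nat.Coprime (orderOf b) p → (cent b).index = 1 ∨ (cent b).index = R := by
    intro b hb
    rw [index_cent_subtype]
    exact relIndex_one_or hmn hsz hxc hxm hn b.2 (hcopx (by rw [Subgroup.orderOf_coe]; exact hb))
  let w' : H := ⟨w, hw⟩
  have hw'c : w' ∉ center H := by
    intro h
    obtain ⟨a, ha, hac⟩ := hwn
    have := (Subgroup.mem_center_iff.1 h) ⟨a, ha⟩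
    exact hac (congrArg Subtype.val this).symm
  have hw'p : Nat.Coprime (orderOf w') p := by
    rw [← Subgroup.orderOf_coe]
    exact hwp
  obtain ⟨k₀, s₀, hy₀⟩ := exists_pri_power hp hw'p hw'c
  set y₀ := w' ^ k₀ with hy₀def
  have hidxPri : ∀ (y : H) (s : ℕ), Pri p y s → (cent y).index = R := by
    intro y s hy
    exact (hszH y (hy.coprime hp)).resolve_left fun h => hy.1 (index_cent_eq_one_iff.1 h)
  have hcardH : ∀ (y y' : H), (cent y).index = (cent y').index →
      Nat.card (cent y) = Nat.card (cent y') := by
    intro y y' h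
    have h2 := Subgroup.card_mul_index (cent y)
    have h3 := Subgroup.card_mul_index (cent y')
    have h4 : 0 < (cent y').index := Nat.pos_of_ne_zero Subgroup.index_ne_zero_of_finite
    rw [h] at h2
    exact Nat.eq_of_mul_eq_mul_right h4 (h2.trans h3.symm)
  have hfam := family (H := H) hp
    (by
      intro y s hy t ht htp hts a ha
      refine weak_of_sizes (l := R) hy.1 (hszH y (hy.coprime hp)) (hszH _ ?_) ht ?_ a ha
      · exact coprime_orderOf_mul (mem_cent_iff.1 ht) (hy.coprime hp) htp
      · obtain ⟨e, he⟩ := hy.2.2.2.orderOf_eq hy.2.1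
        rw [he]
        exact Nat.Coprime.pow_left _ hts.symm)
    (by
      intro y y' s s' hy hy' r _ _
      rw [hcardH y y' ((hidxPri y s hy).trans (hidxPri y' s' hy').symm)])
  rcases hfam with ⟨q, hq⟩ | ⟨-, hidx⟩
  swap
  · right
    left
    obtain ⟨e, he⟩ := hidx y₀ s₀ hy₀
    exact ⟨e, (hidxPri y₀ s₀ hy₀).symm.trans he⟩
  -- all noncentral primary `p'`-elements of `H` are `q`-elements
  have hs₀q : s₀ = q := hq y₀ s₀ hy₀
  subst hs₀q
  have hqp : s₀.Prime := hy₀.2.1
  have hqne : s₀ ≠ p := hy₀.2.2.1
  by_cases hA : ∃ (r : ℕ) (u : H), r.Prime ∧ r ≠ p ∧ r ≠ s₀ ∧ IsEl r u ∧ (u : G) ∉ center G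
  · -- Case A
    obtain ⟨r, u, hr, hrp, hrq, hue, huc⟩ := hA
    have hcentH : ∀ t : H, IsEl r t → t ∈ center H := by
      intro t ht
      by_contra htc
      exact hrq (hq t r ⟨htc, hr, hrp, ht⟩)
    have hle : cent x ≤ cent (u : G) := by
      intro a ha
      have := (Subgroup.mem_center_iff.1 (hcentH u hue)) ⟨a, ha⟩
      exact mem_cent_iff.2 (congrArg Subtype.val this).symm
    have hum : (cent (u : G)).index = m := by
      have hdvd : (cent (u : G)).index ∣ (cent x).index := Subgroup.index_dvd_of_le hle
      have hlem := Nat.le_of_dvd hx0 hdvd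
      rw [hxm] at hlem
      rcases hsz _ huc with h2 | h2
      · exact h2
      · omega
    have hueq : cent (u : G) = cent x := (eq_of_le_of_index_eq hle (hxm.trans hum.symm)).symm
    have hszAll : ∀ h : H, (cent h).index = 1 ∨ (cent h).index = R := by
      intro h
      obtain ⟨a, b, ha, hb, hab, hae, hbc⟩ := exists_parts hr h
      have hac : a ∈ center H := hcentH a hae
      have hceq : cent h = cent b := by
        ext z
        rw [mem_cent_iff, mem_cent_iff, ← hab]
        have hza : a * z = z * a := ((Subgroup.mem_center_iff.1 hac) z).symm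
        constructor
        · intro h1
          have h2 : a * (b * z) = a * (z * b) := by
            calc a * (b * z) = a * b * z := by group
              _ = z * (a * b) := h1
              _ = (z * a) * b := by group
              _ = (a * z) * b := by rw [hza]
              _ = a * (z * b) := by group
          exact mul_left_cancel h2
        · intro h1
          calc a * b * z = a * (b * z) := by group
            _ = a * (z * b) := by rw [h1]
            _ = (a * z) * b := by group
            _ = (z * a) * b := by rw [hza]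
            _ = z * (a * b) := by group
      rw [hceq, index_cent_subtype]
      have h3 : (b : G) ∈ cent (u : G) := by
        rw [hueq]
        exact b.2
      have h4 : Nat.Coprime (orderOf (u : G)) (orderOf (b : G)) := by
        rw [Subgroup.orderOf_coe, Subgroup.orderOf_coe]
        obtain ⟨e, he⟩ := hue.orderOf_eq hr
        rw [he]
        exact Nat.Coprime.pow_left _ hbc.symm
      have h5 := relIndex_one_or hmn hsz huc hum hn h3 h4
      rw [hueq] at h5
      exact h5
    -- a prime not dividing the order of `H`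
    obtain ⟨pf, hpf1, hpf⟩ := Nat.exists_infinite_primes (Nat.card H + 1)
    have hpfnd : ¬ pf ∣ Nat.card H := by
      intro hd
      have := Nat.le_of_dvd Nat.card_pos hd
      omega
    have hsne : ∀ (y : H) (s : ℕ), s.Prime → y ≠ 1 → IsEl s y → s ≠ pf := by
      rintro y s hs hy1 hye rfl
      obtain ⟨e, he⟩ := hye.orderOf_eq hs
      have he0 : e ≠ 0 := by
        rintro rfl
        rw [pow_zero, orderOf_eq_one_iff] at he
        exact hy1 he
      apply hpfnd
      have h2 : s ∣ orderOf y := by
        rw [he]
        exact dvd_pow_self _ he0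
      exact h2.trans (orderOf_dvd_natCard y)
    have hne1 : ∀ y : H, y ∉ center H → y ≠ 1 := by
      rintro y hy rfl
      exact hy (one_mem _)
    have hPriAll : ∀ (y : H) (s : ℕ), y ∉ center H → s.Prime → IsEl s y → Pri pf y s :=
      fun y s hy hs he => ⟨hy, hs, hsne y s hs (hne1 y hy) he, he⟩
    have hidxAll : ∀ y : H, y ∉ center H → (cent y).index = R := by
      intro y hy
      exact (hszAll y).resolve_left fun h => hy (index_cent_eq_one_iff.1 h)
    have hfam2 := family (H := H) hpf
      (by
        intro y s hy t ht htp hts a ha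
        refine weak_of_sizes (l := R) hy.1 (hszAll y) (hszAll _) ht ?_ a ha
        obtain ⟨e, he⟩ := hy.2.2.2.orderOf_eq hy.2.1
        rw [he]
        exact Nat.Coprime.pow_left _ hts.symm)
      (by
        intro y y' s s' hy hy' r _ _
        rw [hcardH y y' ((hidxAll y hy.1).trans (hidxAll y' hy'.1).symm)])
    have hy₀' : Pri pf y₀ s₀ := hPriAll y₀ s₀ hy₀.1 hy₀.2.1 hy₀.2.2.2
    rcases hfam2 with ⟨q₂, hq₂⟩ | ⟨-, hidx⟩
    swap
    · exfalso
      obtain ⟨e, he⟩ := hidx y₀ s₀ hy₀'
      rw [hidxAll y₀ hy₀.1] at he
      have he0 : e ≠ 0 := by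
        rintro rfl
        rw [pow_zero] at he
        exact hR1 he
      have h2 : pf ∣ R := by
        rw [he]
        exact dvd_pow_self _ he0
      have h3 : R = (cent y₀).index := (hidxAll y₀ hy₀.1).symm
      rw [h3] at h2
      exact hpfnd (h2.trans (Subgroup.index_dvd_card _))
    have hq₂eq : q₂ = s₀ := (hq₂ y₀ s₀ hy₀').symm
    subst hq₂eq
    have hallq : ∀ (y : H) (s : ℕ), y ∉ center H → s.Prime → IsEl s y → s = q₂ :=
      fun y s hy hs he => hq₂ y s (hPriAll y s hy hs he)
    right
    right
    obtain ⟨b, hb⟩ := exists_eq_pow_of_primes (n := R) (p0 := q₂) hR0 (by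
      intro d hd hdd
      by_contra hdq
      haveI : Fact d.Prime := ⟨hd⟩
      obtain ⟨D⟩ : Nonempty (Sylow d H) := inferInstance
      have hDle : (D : Subgroup H) ≤ cent y₀ := by
        intro z hz
        have hzc : z ∈ center H := by
          by_contra hzc
          exact hdq (hallq z d hzc hd (isEl_of_mem_sylow D hz))
        exact center_le_cent y₀ hzc
      have h2 := not_dvd_index_of_sylow_le D hDle
      rw [hidxAll y₀ hy₀.1] at h2
      exact h2 hdd)
    refine ⟨q₂, b, hqp, hqne, hb, ?_⟩
    intro f hf hfq a ha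
    have hfc : (⟨f, hf⟩ : H) ∈ center H := by
      by_contra hfc
      obtain ⟨k, s, hs, hk, he⟩ := exists_primary_notMem hfc
      have h2 := hallq _ s hk hs he
      subst h2
      have h3 : Nat.Coprime (orderOf ((⟨f, hf⟩ : H) ^ k)) s := by
        apply coprime_orderOf_pow
        rw [← Subgroup.orderOf_coe]
        exact hfq
      have h4 := he.eq_one_of_coprime h3
      rw [h4] at hk
      exact hk (one_mem _)
    have := (Subgroup.mem_center_iff.1 hfc) ⟨a, ha⟩
    exact (congrArg Subtype.val this).symm
  · -- Case B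
    push Not at hA
    left
    apply burn (p := p) (q := s₀) hp
    intro r hr hrp hrq a hae
    by_contra hac
    have h2 := noRoom hr hae hac (cent x) (by
      intro t ht hte
      by_contra htc
      exact htc (hA r ⟨t, ht⟩ hr hrp hrq (isEl_subtype.1 hte)))
    have hidxa : (cent a).index = m ∨ (cent a).index = R * m := by
      rcases hsz a hac with h3 | h3
      · exact Or.inl h3
      · exact Or.inr (h3.trans hn)
    have hdvd : Nat.card (cent a) ∣ Nat.card (cent x) := by
      have h3 := Subgroup.card_mul_index (cent a)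
      have h4 := Subgroup.card_mul_index (cent x)
      rw [hxm] at h4
      rcases hidxa with h5 | h5
      · rw [h5] at h3
        rw [Nat.eq_of_mul_eq_mul_right (by omega) (h3.trans h4.symm)]
      · rw [h5] at h3
        have h6 : (Nat.card (cent a) * R) * m = Nat.card (cent x) * m := by
          rw [mul_assoc, h3, h4]
        rw [← Nat.eq_of_mul_eq_mul_right (by omega) h6]
        exact dvd_mul_right _ _
    have h7 := (Nat.factorization_le_iff_dvd Nat.card_pos.ne' Nat.card_pos.ne').2 hdvd r
    omega

/-- Ito's theorem, in the form with at most two nontrivial class sizes. -/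
theorem ito_solvable : Group.IsSolvable G := by
  classical
  by_cases hsol : Group.IsSolvable G
  · exact hsol
  exfalso
  apply hsol
  by_cases hT : ∃ (x w : G) (p : ℕ), p.Prime ∧ IsEl p x ∧ x ∉ center G ∧ w ∈ cent x ∧
      Nat.Coprime (orderOf w) p ∧ ∃ a ∈ cent x, ¬ Commute w a
  · -- Case T
    obtain ⟨x, w, p₀, hp₀, hx, hxc, hw, hwp, hwn⟩ := hT
    obtain ⟨hxm, l, hn, hl, halt⟩ := lemmaIII hmn hsz hp₀ hx hxc hw hwp hwn
    have hm0 : 0 < m := by
      rw [← hxm]
      exact Nat.pos_of_ne_zero Subgroup.index_ne_zero_of_finite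
    -- `l` is a prime power
    obtain ⟨s, e, hs, hle⟩ : ∃ s e : ℕ, s.Prime ∧ l = s ^ e := by
      rcases halt with h1 | ⟨e, he⟩ | ⟨q, b, hq, -, hb, -⟩
      · exact absurd h1 hsol
      · exact ⟨p₀, e, hp₀, he⟩
      · exact ⟨q, b, hq, hb⟩
    have he0 : e ≠ 0 := by
      rintro rfl
      rw [pow_zero] at hle
      omega
    have hdivs : ∀ r : ℕ, r.Prime → r ≠ s → ∀ f : ℕ, l ≠ r ^ f := by
      intro r hr hrs f hf
      have h1 : s ∣ r ^ f := by
        rw [← hf, hle]
        exact dvd_pow_self _ he0
      exact hrs ((Nat.prime_dvd_prime_iff_eq hs hr).1 (hs.dvd_of_dvd_pow h1)).symm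
    have hfam := family (H := G) hs
      (by
        intro y r hy t ht hts htr a ha
        by_contra hnc
        obtain ⟨hym, l', hn', hl', halt'⟩ := lemmaIII hmn hsz hy.2.1 hy.2.2.2 hy.1 ht htr ⟨a, ha, hnc⟩
        have hll : l' = l := Nat.eq_of_mul_eq_mul_right hm0 (hn'.symm.trans hn)
        subst hll
        rcases halt' with h1 | ⟨f, hf⟩ | ⟨q, b, hq, hqr, hb, hcen⟩
        · exact hsol h1
        · exact hdivs r hy.2.1 hy.2.2.1 f hf
        · have hqs : q = s := by
            by_contra hqs
            exact hdivs q hq hqs b hb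
          subst hqs
          exact hnc (hcen t ht hts a ha))
      (by
        intro y y' r r' hy hy' ρ hρ hρs
        have hfac : ∀ (z : G) (t : ℕ), Pri s z t → (Nat.card (cent z)).factorization ρ
            + m.factorization ρ = (Nat.card G).factorization ρ := by
          intro z t hz
          have h1 := Subgroup.card_mul_index (cent z)
          have hl0 : l ≠ 0 := by omega
          have h2 : ((cent z).index).factorization ρ = m.factorization ρ := by
            rcases hsz z hz.1 with h3 | h3
            · rw [h3]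
            · rw [h3, hn, Nat.factorization_mul hl0 hm0.ne']
              have : l.factorization ρ = 0 := by
                apply Nat.factorization_eq_zero_of_not_dvd
                rw [hle]
                intro h4
                exact hρs ((Nat.prime_dvd_prime_iff_eq hρ hs).1 (hρ.dvd_of_dvd_pow h4))
              simp [this]
          rw [← h1, Nat.factorization_mul Nat.card_pos.ne' Subgroup.index_ne_zero_of_finite]
          simp [h2]
        have h1 := hfac y r hy
        have h2 := hfac y' r' hy'
        omega)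
    rcases hfam with ⟨q, hq⟩ | ⟨h1, -⟩
    · apply burn (p := s) (q := q) hs
      intro r hr hrs hrq a hae
      by_contra hac
      exact hrq (hq a r ⟨hac, hr, hrs, hae⟩)
    · exact h1
  -- Case F
  push Not at hT
  by_cases hpartner : ∀ (y : G) (s : ℕ), s.Prime → IsEl s y → y ∉ center G →
      ∃ (t : G) (s' : ℕ), s'.Prime ∧ IsEl s' t ∧ t ∉ center G ∧ s' ≠ s ∧ t ∈ cent y
  · -- F1: partition
    obtain ⟨pf, hpf1, hpf⟩ := Nat.exists_infinite_primes (Nat.card G + 1)
    have hpfnd : ¬ pf ∣ Nat.card G := by
      intro hd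
      have := Nat.le_of_dvd Nat.card_pos hd
      omega
    have hsne : ∀ (y : G) (s : ℕ), s.Prime → y ∉ center G → IsEl s y → s ≠ pf := by
      rintro y s hs hy1 hye rfl
      obtain ⟨e, he⟩ := hye.orderOf_eq hs
      have he0 : e ≠ 0 := by
        rintro rfl
        rw [pow_zero, orderOf_eq_one_iff] at he
        rw [he] at hy1
        exact hy1 (one_mem _)
      apply hpfnd
      have h2 : s ∣ orderOf y := by
        rw [he]
        exact dvd_pow_self _ he0
      exact h2.trans (orderOf_dvd_natCard y)
    have hFam : FamHyp pf G :=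
      { prime := hpf
        Fw := fun y s hy t ht htp hts a ha =>
          hT y t s hy.2.1 hy.2.2.2 hy.1 ht hts a ha
        partner := fun y s hy => by
          obtain ⟨t, s', hs', hte, htc, hne, hty⟩ := hpartner y s hy.2.1 hy.2.2.2 hy.1
          exact ⟨t, s', ⟨htc, hs', hsne t s' hs' htc hte, hte⟩, hne, hty⟩ }
    have hC := hFam.comps
    have hfake : ¬ pf ∣ Nat.card (G ⧸ center G) := by
      intro hd
      apply hpfnd
      exact hd.trans (Subgroup.card_quotient_dvd_card _)
    have hcardMb : ∀ (y y' : G) (s s' : ℕ), Pri pf y s → Pri pf y' s' →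
        (cent y).index = (cent y').index → Nat.card (Mb pf y) = Nat.card (Mb pf y') := by
      intro y y' s s' hy hy' hidx
      have hcards : Nat.card (cent y) = Nat.card (cent y') := by
        have h2 := Subgroup.card_mul_index (cent y)
        have h3 := Subgroup.card_mul_index (cent y')
        have h4 : 0 < (cent y').index := Nat.pos_of_ne_zero Subgroup.index_ne_zero_of_finite
        rw [hidx] at h2
        exact Nat.eq_of_mul_eq_mul_right h4 (h2.trans h3.symm)
      apply Nat.eq_of_factorization_eq Nat.card_pos.ne' Nat.card_pos.ne'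
      intro r
      by_cases hr : r.Prime
      swap
      · rw [Nat.factorization_eq_zero_of_not_prime _ hr, Nat.factorization_eq_zero_of_not_prime _ hr]
      by_cases hrp : r = pf
      · subst hrp
        have hc1 := hC.cop _ ⟨y, s, hy, rfl⟩
        have hc2 := hC.cop _ ⟨y', s', hy', rfl⟩
        rw [Nat.factorization_eq_zero_of_not_dvd, Nat.factorization_eq_zero_of_not_dvd]
        · intro hd
          exact hr.one_lt.ne' (Nat.Coprime.eq_one_of_dvd hc2.symm hd)
        · intro hd
          exact hr.one_lt.ne' (Nat.Coprime.eq_one_of_dvd hc1.symm hd)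
      · have h1 := hFam.card_Mb_factorization hy hr hrp
        have h2 := hFam.card_Mb_factorization hy' hr hrp
        rw [hcards] at h1
        omega
    have hex : ∀ k : ℕ, ∃ A : ℕ, ∀ (y : G) (s : ℕ), Pri pf y s → (cent y).index = k →
        Nat.card (Mb pf y) = A := by
      intro k
      by_cases h : ∃ (y : G) (s : ℕ), Pri pf y s ∧ (cent y).index = k
      · obtain ⟨y₀, s₀, hy₀, hk⟩ := h
        exact ⟨Nat.card (Mb pf y₀), fun y s hy hk' =>
          hcardMb y y₀ s s₀ hy hy₀ (hk'.trans hk.symm)⟩
      · push Not at h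
        exact ⟨0, fun y s hy hk' => absurd hk' (h y s hy)⟩
    obtain ⟨A₁, hA₁⟩ := hex m
    obtain ⟨A₂, hA₂⟩ := hex n
    have horders : ∀ M ∈ FamHyp.fam pf G, Nat.card M = A₁ ∨ Nat.card M = A₂ := by
      rintro M ⟨y, s, hy, rfl⟩
      rcases hsz y hy.1 with h1 | h1
      · exact Or.inl (hA₁ y s hy h1)
      · exact Or.inr (hA₂ y s hy h1)
    exact solvable_of_center_quotient (hC.partition_solvable hpf hfake horders)
  · -- F2
    push Not at hpartner
    obtain ⟨x₁, p, hp, hx₁e, hx₁c, hno⟩ := hpartner
    have hbad : ∀ (y : G) (r : ℕ), Pri p y r → (cent y).index ≠ (cent x₁).index := by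
      intro y r hy hidx
      have h1 := noRoom hy.2.1 hy.2.2.2 hy.1 (cent x₁) (by
        intro t ht hte
        by_contra htc
        exact hno t r hy.2.1 hte htc hy.2.2.1 ht)
      have h2 := Subgroup.card_mul_index (cent y)
      have h3 := Subgroup.card_mul_index (cent x₁)
      have h4 : 0 < (cent x₁).index := Nat.pos_of_ne_zero Subgroup.index_ne_zero_of_finite
      rw [hidx] at h2
      rw [Nat.eq_of_mul_eq_mul_right h4 (h2.trans h3.symm)] at h1
      omega
    have hfam := family (H := G) hp
      (fun y s hy t ht htp hts a ha => hT y t s hy.2.1 hy.2.2.2 hy.1 ht hts a ha)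
      (by
        intro y y' s s' hy hy' r _ _
        have h1 := hbad y s hy
        have h2 := hbad y' s' hy'
        have h3 : (cent y).index = (cent y').index := by
          rcases hsz y hy.1 with h4 | h4 <;> rcases hsz y' hy'.1 with h5 | h5 <;>
            rcases hsz x₁ hx₁c with h6 | h6 <;> omega
        have h4 := Subgroup.card_mul_index (cent y)
        have h5 := Subgroup.card_mul_index (cent y')
        have h6 : 0 < (cent y').index := Nat.pos_of_ne_zero Subgroup.index_ne_zero_of_finite
        rw [h3] at h4
        rw [Nat.eq_of_mul_eq_mul_right h6 (h4.trans h5.symm)])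
    rcases hfam with ⟨q, hq⟩ | ⟨h1, -⟩
    · apply burn (p := p) (q := q) hp
      intro r hr hrs hrq a hae
      by_contra hac
      exact hrq (hq a r ⟨hac, hr, hrs, hae⟩)
    · exact h1

end Sizes

end Cfsg.Agent.Lib.Ito
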